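import Cfsg.Agent.PronormalPSL.Basic

/-!
Pronormality of subgroups of odd index in direct products, from a property of the factors.
-/

set_option autoImplicit false
set_option linter.style.haveILetI false

namespace Cfsg.Agent.PronormalPSp

open Subgroup

/-- The property of a group with a chosen Sylow 2-subgroup `S` that is used for products:
`N(S)/S` is abelian, and every element `x` of `N(S)` either normalises a given `D ≥ S` or lies in
the subgroup generated by `D` and its conjugate by `x`. -/
structure Good {G : Type*} [Group G] (S : Subgroup G) : Prop where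
  comm : ∀ x ∈ normalizer (S : Set G), ∀ y ∈ normalizer (S : Set G), x * y * x⁻¹ * y⁻¹ ∈ S
  alt : ∀ D : Subgroup G, S ≤ D → ∀ x ∈ normalizer (S : Set G),
    x ∈ normalizer (D : Set G) ∨ x ∈ D ⊔ D.map (MulAut.conj x).toMonoidHom

theorem good_of_selfNormalizing {G : Type*} [Group G] {S : Subgroup G}
    (h : normalizer (S : Set G) ≤ S) : Good S where
  comm x hx y hy := mul_mem (mul_mem (mul_mem (h hx) (h hy)) (inv_mem (h hx))) (inv_mem (h hy))
  alt _ hD _ hx := .inr (mem_sup_left (hD (h hx)))

/-- The property passes to quotients by normal 2-subgroups. -/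
theorem exists_good_map {M G : Type*} [Group M] [Finite M] [Group G] [Finite G] (f : M →* G)
    (hf : Function.Surjective f) (hker : IsPGroup 2 f.ker) (P₀ : Sylow 2 M)
    (h : Good (P₀ : Subgroup M)) : ∃ P : Sylow 2 G, Good (P : Subgroup G) := by
  haveI : Fact (Nat.Prime 2) := ⟨Nat.prime_two⟩
  refine ⟨P₀.mapSurjective hf, ?_⟩
  show Good ((P₀ : Subgroup M).map f)
  have hle : f.ker ≤ (P₀ : Subgroup M) :=
    le_sup_left.trans (P₀.3 (IsPGroup.to_sup_of_normal_left hker P₀.2) le_sup_right).le
  have e : ∀ y : M, y ∈ (P₀ : Subgroup M) ↔ f y ∈ (P₀ : Subgroup M).map f := fun y => by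
    rw [← mem_comap, comap_map_eq_self hle]
  have hlift : ∀ y : M, f y ∈ normalizer (((P₀ : Subgroup M).map f : Subgroup G) : Set G) →
      y ∈ normalizer ((P₀ : Subgroup M) : Set M) := by
    intro y hy
    rw [mem_normalizer_iff] at hy ⊢
    intro z
    rw [e, e (y * z * y⁻¹), map_mul, map_mul, map_inv]
    exact hy (f z)
  constructor
  · intro x hx y hy
    obtain ⟨x, rfl⟩ := hf x
    obtain ⟨y, rfl⟩ := hf y
    rw [← map_inv, ← map_inv, ← map_mul, ← map_mul, ← map_mul]
    exact mem_map_of_mem f (h.comm x (hlift x hx) y (hlift y hy))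
  · intro D hD x hx
    obtain ⟨x, rfl⟩ := hf x
    rcases h.alt (D.comap f) (fun z hz => hD ((e z).1 hz)) x (hlift x hx) with hN | hK
    · refine .inl (mem_normalizer_iff.2 fun z => ?_)
      obtain ⟨z, rfl⟩ := hf z
      have := mem_normalizer_iff.1 hN z
      simp only [mem_comap, map_mul, map_inv] at this
      exact this
    · refine .inr ?_
      have h1 := mem_map_of_mem f hK
      rw [Subgroup.map_sup, map_map] at h1
      refine sup_le_sup (map_comap_le f D) ?_ h1
      rintro _ ⟨z, hz, rfl⟩
      exact ⟨f z, hz, by simp⟩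

section Pi

variable {ι : Type*} [Fintype ι] {M : ι → Type*} [∀ i, Group (M i)] [∀ i, Finite (M i)]

/-- The product of Sylow 2-subgroups. -/
def piSylow (S : ∀ i, Sylow 2 (M i)) : Sylow 2 (Π i, M i) where
  toSubgroup := Subgroup.pi Set.univ fun i => (S i : Subgroup (M i))
  isPGroup' := by
    rintro ⟨x, hx⟩
    choose k hk using fun i => (S i).2 ⟨x i, hx i (Set.mem_univ i)⟩
    refine ⟨∑ i, k i, Subtype.ext (funext fun i => ?_)⟩
    show x i ^ 2 ^ (∑ i, k i) = 1
    have h1 : x i ^ 2 ^ k i = 1 := congrArg Subtype.val (hk i)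
    obtain ⟨r, hr⟩ := Nat.pow_dvd_pow 2
      (Finset.single_le_sum (f := k) (fun j _ => Nat.zero_le _) (Finset.mem_univ i))
    rw [hr, pow_mul, h1, one_pow]
  is_maximal' := by
    intro Q hQ hle
    refine le_antisymm (fun x hx i _ => ?_) hle
    change x i ∈ (S i : Subgroup (M i))
    have h1 : (S i : Subgroup (M i)) ≤ Q.map (Pi.evalMonoidHom M i) := by
      intro s hs
      classical
      refine ⟨Pi.mulSingle i s, hle fun j _ => ?_, by simp⟩
      rcases eq_or_ne j i with rfl | hne
      · show Pi.mulSingle j s j ∈ (S j : Subgroup (M j))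
        rwa [Pi.mulSingle_eq_same]
      · show Pi.mulSingle i s j ∈ (S j : Subgroup (M j))
        rw [Pi.mulSingle_eq_of_ne hne]; exact one_mem (S j : Subgroup (M j))
    rw [← (S i).3 (hQ.map _) h1]
    exact mem_map_of_mem _ hx

theorem mem_piSylow {S : ∀ i, Sylow 2 (M i)} {x : Π i, M i} :
    x ∈ (piSylow S : Subgroup (Π i, M i)) ↔ ∀ i, x i ∈ (S i : Subgroup (M i)) :=
  ⟨fun h i => h i (Set.mem_univ i), fun h i _ => h i⟩

/-- Subgroups of odd index of a product of good groups are pronormal. -/
theorem isPronormal_pi (S : ∀ i, Sylow 2 (M i)) (hS : ∀ i, Good (S i : Subgroup (M i)))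
    (H : Subgroup (Π i, M i)) (hH : Odd H.index) : Cfsg.IsPronormal H := by
  classical
  haveI : Fact (Nat.Prime 2) := ⟨Nat.prime_two⟩
  set P := piSylow S with hP
  obtain ⟨Q, hQ⟩ := PronormalPSL.exists_sylow_le hH
  obtain ⟨a, ha⟩ := MulAction.exists_smul_eq (Π i, M i) Q P
  refine PronormalPSL.isPronormal_of_map_conj H a ?_
  have hPH : (P : Subgroup (Π i, M i)) ≤ H.map (MulAut.conj a).toMonoidHom := by
    rw [← ha, Sylow.coe_subgroup_smul]
    exact map_mono hQ
  clear hH hQ
  generalize H.map (MulAut.conj a).toMonoidHom = H at hPH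
  intro g
  set K := H ⊔ H.map (MulAut.conj g).toMonoidHom with hK
  have hgPK : ((g • P : Sylow 2 (Π i, M i)) : Subgroup (Π i, M i)) ≤ K :=
    (by rw [Sylow.coe_subgroup_smul]; exact le_trans (Subgroup.map_mono hPH) le_sup_right)
  obtain ⟨k, hkK, hk⟩ := Known.exists_mem_smul_sylow_eq P g K (hPH.trans le_sup_left) hgPK
  set x := k⁻¹ * g with hxdef
  have hxN : x ∈ normalizer ((P : Subgroup (Π i, M i)) : Set (Π i, M i)) := by
    refine Sylow.smul_eq_iff_mem_normalizer.mp ?_
    rw [hxdef, mul_smul, ← hk, inv_smul_smul]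
  have hxi : ∀ i, x i ∈ normalizer ((S i : Subgroup (M i)) : Set (M i)) := by
    intro i
    refine mem_normalizer_fintype fun s hs => ?_
    have h1 : (Pi.mulSingle i s : Π j, M j) ∈ (P : Subgroup (Π i, M i)) := mem_piSylow.2 fun j => by
      rcases eq_or_ne j i with rfl | hne
      · rwa [Pi.mulSingle_eq_same]
      · rw [Pi.mulSingle_eq_of_ne hne]; exact one_mem _
    have := mem_piSylow.1 ((mem_normalizer_iff.1 hxN _).1 h1) i
    simp only [Pi.mul_apply, Pi.inv_apply, Pi.mulSingle_eq_same] at this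
    exact this
  let D : ∀ i, Subgroup (M i) := fun i => H.comap (MonoidHom.mulSingle M i)
  have hSD : ∀ i, (S i : Subgroup (M i)) ≤ D i := fun i s hs =>
    hPH (mem_piSylow.2 fun j => by
      rw [MonoidHom.mulSingle_apply]
      rcases eq_or_ne j i with rfl | hne
      · rwa [Pi.mulSingle_eq_same]
      · rw [Pi.mulSingle_eq_of_ne hne]; exact one_mem _)
  set K' := H ⊔ H.map (MulAut.conj x).toMonoidHom with hK'
  have hK'K : K' ≤ K := by
    refine sup_le le_sup_left ?_
    rw [hxdef, ← Known.map_conj_mul]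
    rintro _ ⟨z, hz, rfl⟩
    exact mul_mem (mul_mem (inv_mem hkK) (mem_sup_right hz)) (inv_mem (inv_mem hkK))
  have hsingle : ∀ i, x i ∉ normalizer (D i : Set (M i)) → Pi.mulSingle i (x i) ∈ K' := by
    intro i hi
    have h1 := ((hS i).alt (D i) (hSD i) (x i) (hxi i)).resolve_left hi
    have h2 : D i ⊔ (D i).map (MulAut.conj (x i)).toMonoidHom ≤
        K'.comap (MonoidHom.mulSingle M i) := by
      refine sup_le (fun d hd => mem_sup_left (show _ ∈ H from hd)) ?_
      rintro _ ⟨d, hd, rfl⟩
      refine mem_sup_right ⟨Pi.mulSingle i d, hd, ?_⟩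
      funext j
      rcases eq_or_ne j i with rfl | hne
      · simp
      · simp [Pi.mulSingle_eq_of_ne hne]
    exact h2 h1
  let y : Π i, M i := fun i => if x i ∈ normalizer (D i : Set (M i)) then 1 else x i
  let x' : Π i, M i := fun i => if x i ∈ normalizer (D i : Set (M i)) then x i else 1
  have hy : y ∈ K' := by
    refine Subgroup.pi_mem_of_mulSingle_mem y fun i => ?_
    by_cases h : x i ∈ normalizer (D i : Set (M i))
    · simp [y, h]
    · simpa [y, h] using hsingle i h
  have hxy : x = y * x' := funext fun i => by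
    by_cases h : x i ∈ normalizer (D i : Set (M i)) <;> simp [x', y, h]
  have hx'D : ∀ i, x' i ∈ normalizer (D i : Set (M i)) := fun i => by
    by_cases h : x i ∈ normalizer (D i : Set (M i))
    · simp [x', h]
    · simp only [x', h, if_false]; exact one_mem _
  have hx'S : ∀ i, x' i ∈ normalizer ((S i : Subgroup (M i)) : Set (M i)) := fun i => by
    by_cases h : x i ∈ normalizer (D i : Set (M i))
    · simpa [x', h] using hxi i
    · simp only [x', h, if_false]; exact one_mem _
  set DD : Subgroup (Π i, M i) := Subgroup.pi Set.univ D with hDD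
  have hDH : DD ≤ H := Subgroup.pi_le_iff.2 fun i => map_le_iff_le_comap.2 le_rfl
  have hPD : (P : Subgroup (Π i, M i)) ≤ DD := fun z hz i _ => hSD i (mem_piSylow.1 hz i)
  have hHD : ∀ h ∈ H, ∀ i, h i ∈ normalizer (D i : Set (M i)) := fun h hh i =>
    mem_normalizer_fintype fun d hd => by
      show Pi.mulSingle i (h i * d * (h i)⁻¹) ∈ H
      have h1 : h * Pi.mulSingle i d * h⁻¹ ∈ H := mul_mem (mul_mem hh hd) (inv_mem hh)
      convert h1 using 1
      funext j
      rcases eq_or_ne j i with rfl | hne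
      · simp
      · simp [Pi.mulSingle_eq_of_ne hne]
  have hx'H : x' ∈ normalizer (H : Set (Π i, M i)) := by
    refine mem_normalizer_fintype fun h hh => ?_
    have hhP : ((h • P : Sylow 2 (Π i, M i)) : Subgroup (Π i, M i)) ≤ DD := by
      rw [Sylow.coe_subgroup_smul]
      rintro _ ⟨s, hs, rfl⟩ i _
      exact (mem_normalizer_iff.1 (hHD h hh i) _).1 (hPD hs i (Set.mem_univ i))
    obtain ⟨d, hd, hde⟩ := Known.exists_mem_smul_sylow_eq P h DD hPD hhP
    set nn := d⁻¹ * h with hnn
    have hnN : nn ∈ normalizer ((P : Subgroup (Π i, M i)) : Set (Π i, M i)) := by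
      refine Sylow.smul_eq_iff_mem_normalizer.mp ?_
      rw [hnn, mul_smul, ← hde, inv_smul_smul]
    have hni : ∀ i, nn i ∈ normalizer ((S i : Subgroup (M i)) : Set (M i)) := fun i =>
      mem_normalizer_fintype fun s hs => by
        have h1 : (Pi.mulSingle i s : Π j, M j) ∈ (P : Subgroup (Π i, M i)) := mem_piSylow.2 fun j => by
          rcases eq_or_ne j i with rfl | hne
          · rwa [Pi.mulSingle_eq_same]
          · rw [Pi.mulSingle_eq_of_ne hne]; exact one_mem _
        have := mem_piSylow.1 ((mem_normalizer_iff.1 hnN _).1 h1) i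
        simp only [Pi.mul_apply, Pi.inv_apply, Pi.mulSingle_eq_same] at this
        exact this
    have e : x' * h * x'⁻¹ = (x' * d * x'⁻¹) * (x' * nn * x'⁻¹ * nn⁻¹) * nn := by
      rw [hnn]; group
    rw [SetLike.mem_coe, e]
    refine mul_mem (mul_mem (hDH fun i _ => ?_) (hPH (mem_piSylow.2 fun i => ?_)))
      (mul_mem (inv_mem (hDH hd)) hh)
    · exact (mem_normalizer_iff.1 (hx'D i) _).1 (hd i (Set.mem_univ i))
    · exact (hS i).comm _ (hx'S i) _ (hni i)
  refine ⟨k * y, mul_mem hkK (hK'K hy), ?_⟩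
  calc H.map (MulAut.conj g).toMonoidHom
      = H.map (MulAut.conj (k * y * x')).toMonoidHom := by
        rw [mul_assoc, ← hxy, hxdef, mul_inv_cancel_left]
    _ = _ := by
        rw [← Known.map_conj_mul H (k * y) x']
        exact congrArg (fun L : Subgroup (Π i, M i) => L.map (MulAut.conj (k * y)).toMonoidHom)
          (mem_normalizer_iff_map_conj_eq.mp hx'H)

end Pi

end Cfsg.Agent.PronormalPSp
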