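import Mathlib

/-!
Computations in `M_2(F)` seen as a quaternion algebra.
-/

set_option autoImplicit false
set_option linter.unusedSectionVars false

namespace Cfsg.Agent.PronormalPSp

open Matrix

variable {F : Type*} [Field F]

local notation "M₂" => Matrix (Fin 2) (Fin 2) F

/-- A quaternion pair. -/
structure QPair (I J : Matrix (Fin 2) (Fin 2) F) : Prop where
  hI : I * I = -1
  hJ : J * J = -1
  hJI : J * I = -(I * J)

namespace QPair

variable {I J : Matrix (Fin 2) (Fin 2) F} (h : QPair I J)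

include h

theorem I_IJ : I * (I * J) = -J := by rw [← mul_assoc, h.hI, neg_one_mul]

theorem IJ_I : I * J * I = J := by
  rw [mul_assoc, h.hJI, mul_neg, ← mul_assoc, h.hI, neg_one_mul, neg_neg]

theorem J_IJ : J * (I * J) = I := by
  rw [← mul_assoc, h.hJI, neg_mul, mul_assoc, h.hJ, mul_neg, mul_one, neg_neg]

theorem IJ_J : I * J * J = -I := by rw [mul_assoc, h.hJ, mul_neg, mul_one]

theorem IJ_IJ : I * J * (I * J) = -1 := by
  rw [← mul_assoc (I * J), h.IJ_I, h.hJ]

theorem rotate : QPair J (-I) where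
  hI := h.hJ
  hJ := by rw [neg_mul_neg, h.hI]
  hJI := by rw [neg_mul, mul_neg, neg_neg, h.hJI]

theorem rotate' : QPair (I * J) I where
  hI := h.IJ_IJ
  hJ := h.hI
  hJI := by rw [h.I_IJ, h.IJ_I]

theorem indep (h2 : (2 : F) ≠ 0) {u x y z : F}
    (he : u • (1 : M₂) + x • I + y • J + z • (I * J) = 0) : u = 0 ∧ x = 0 ∧ y = 0 ∧ z = 0 := by
  have e1 := congrArg (fun A => I * A * I) he
  simp only [mul_add, add_mul, mul_smul_comm, smul_mul_assoc, mul_one, mul_zero, zero_mul, h.hI,
    h.I_IJ, neg_one_mul, neg_mul, one_mul, smul_neg, h.IJ_I, h.hJI, neg_neg] at e1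
  have e2 : (2 : F) • (u • (1 : M₂) + x • I) = 0 := by
    calc (2 : F) • (u • (1 : M₂) + x • I)
        = (u • (1 : M₂) + x • I + y • J + z • (I * J)) -
            (-(u • (1 : M₂)) + -(x • I) + y • J + z • (I * J)) := by module
      _ = 0 := by rw [he, e1, sub_zero]
  have e3 := (smul_eq_zero.1 e2).resolve_left h2
  have e4 := congrArg (fun A => J * A * J) e3
  simp only [mul_add, add_mul, mul_smul_comm, smul_mul_assoc, mul_one, mul_zero, zero_mul, h.hJ,
    h.hJI, neg_mul, h.IJ_J, neg_neg, smul_neg] at e4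
  have e5 : (2 : F) • (x • I) = 0 := by
    calc (2 : F) • (x • I) = (u • (1 : M₂) + x • I) + (-(u • (1 : M₂)) + x • I) := by module
      _ = 0 := by rw [e3, e4, add_zero]
  have hI0 : I ≠ 0 := fun hI => by
    have := h.hI
    rw [hI, mul_zero] at this
    exact one_ne_zero (neg_eq_zero.1 this.symm)
  have hx : x = 0 := (smul_eq_zero.1 ((smul_eq_zero.1 e5).resolve_left h2)).resolve_right hI0
  have hu : u = 0 := by
    rw [hx, zero_smul, add_zero] at e3
    exact (smul_eq_zero.1 e3).resolve_right one_ne_zero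
  have e6 : y • J + z • (I * J) = 0 := by
    simpa [hu, hx] using he
  have e7 := congrArg (fun A => J * A * J) e6
  simp only [mul_add, add_mul, mul_smul_comm, smul_mul_assoc, mul_zero, zero_mul, h.hJ, h.J_IJ,
    neg_mul, one_mul, smul_neg] at e7
  have hJ0 : J ≠ 0 := fun hJ => by
    have := h.hJ
    rw [hJ, mul_zero] at this
    exact one_ne_zero (neg_eq_zero.1 this.symm)
  have e8 : (2 : F) • (y • J) = 0 := by
    calc (2 : F) • (y • J) = (y • J + z • (I * J)) - (-(y • J) + z • (I * J)) := by module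
      _ = 0 := by rw [e6, e7, sub_zero]
  have hy : y = 0 := (smul_eq_zero.1 ((smul_eq_zero.1 e8).resolve_left h2)).resolve_right hJ0
  refine ⟨hu, hx, hy, ?_⟩
  rw [hy, zero_smul, zero_add] at e6
  refine (smul_eq_zero.1 e6).resolve_right fun hK => ?_
  have := h.IJ_IJ
  rw [hK, mul_zero] at this
  exact one_ne_zero (neg_eq_zero.1 this.symm)

theorem span (h2 : (2 : F) ≠ 0) (t : M₂) :
    ∃ u x y z : F, t = u • (1 : M₂) + x • I + y • J + z • (I * J) := by
  have hli : LinearIndependent F ![(1 : M₂), I, J, I * J] := by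
    rw [Fintype.linearIndependent_iff]
    intro g hg
    rw [Fin.sum_univ_four] at hg
    obtain ⟨a, b, c, d⟩ := h.indep h2 (u := g 0) (x := g 1) (y := g 2) (z := g 3) (by simpa using hg)
    intro i
    fin_cases i <;> assumption
  have hs := hli.span_eq_top_of_card_eq_finrank (by simp [Module.finrank_matrix])
  have ht : t ∈ Submodule.span F (Set.range ![(1 : M₂), I, J, I * J]) := by rw [hs]; trivial
  obtain ⟨g, hg⟩ := Submodule.mem_span_range_iff_exists_fun F |>.1 ht
  exact ⟨g 0, g 1, g 2, g 3, by rw [← hg, Fin.sum_univ_four]; simp⟩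

theorem mul_expand (x y z x' y' z' : F) :
    (x • I + y • J + z • (I * J)) * (x' • I + y' • J + z' • (I * J)) =
      (-(x * x' + y * y' + z * z')) • (1 : M₂) + (y * z' - z * y') • I +
        (z * x' - x * z') • J + (x * y' - y * x') • (I * J) := by
  simp only [mul_add, add_mul, smul_mul_smul_comm, h.hI, h.hJ, h.hJI, h.I_IJ, h.IJ_I, h.J_IJ,
    h.IJ_J, h.IJ_IJ, smul_neg]
  module

/-- A nonscalar square root of `-1` is a unit vector. -/
theorem coords (h2 : (2 : F) ≠ 0) {t : M₂} (ht : t * t = -1) (hns : ∀ s : F, t ≠ s • 1) :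
    ∃ x y z : F, t = x • I + y • J + z • (I * J) ∧ x * x + y * y + z * z = 1 := by
  obtain ⟨u, x, y, z, e⟩ := h.span h2 t
  have hsq : t * t = (u * u - (x * x + y * y + z * z)) • (1 : M₂) + (2 * u * x) • I +
      (2 * u * y) • J + (2 * u * z) • (I * J) := by
    have hsplit : ∀ V : M₂, (u • (1 : M₂) + V) * (u • (1 : M₂) + V) =
        (u * u) • (1 : M₂) + (2 * u) • V + V * V := fun V => by
      simp only [mul_add, add_mul, smul_mul_smul_comm, smul_mul_assoc, mul_smul_comm, mul_one,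
        one_mul]
      module
    rw [e, show u • (1 : M₂) + x • I + y • J + z • (I * J) =
      u • (1 : M₂) + (x • I + y • J + z • (I * J)) by abel, hsplit, h.mul_expand]
    module
  have h0 : (u * u - (x * x + y * y + z * z) + 1) • (1 : M₂) + (2 * u * x) • I +
      (2 * u * y) • J + (2 * u * z) • (I * J) = 0 := by
    calc _ = t * t + (1 : M₂) := by rw [hsq]; module
      _ = 0 := by rw [ht, neg_add_cancel]
  obtain ⟨a, b, c, d⟩ := h.indep h2 h0
  by_cases hu : u = 0
  · subst hu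
    exact ⟨x, y, z, by rw [e, zero_smul, zero_add], by linear_combination -a⟩
  · refine absurd ?_ (hns u)
    have h' : ∀ w : F, 2 * u * w = 0 → w = 0 := fun w hw =>
      (mul_eq_zero.1 hw).resolve_left (mul_ne_zero h2 hu)
    simp [e, h' x b, h' y c, h' z d]

/-- The possible axes of `u + v t`, for the conjugate of `I`. -/
theorem axis_I (h2 : (2 : F) ≠ 0) {u v x y z : F} (hu : u ≠ 0) (hv : v ≠ 0) {H : M₂}
    (hH : H = u • (1 : M₂) + v • (x • I + y • J + z • (I * J)))
    (hn : ∃ ξ : M₂, (ξ = I ∨ ξ = -I ∨ ξ = J ∨ ξ = -J ∨ ξ = I * J ∨ ξ = -(I * J)) ∧ H * I = ξ * H) :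
    (y = 0 ∧ z = 0) ∨ (x * x = y * y ∧ v * v * (z * z) = u * u) ∨
      (x * x = z * z ∧ v * v * (y * y) = u * u) := by
  obtain ⟨ξ, hξ, e⟩ := hn
  have ei : H * I = (-(v * x)) • (1 : M₂) + u • I + (v * z) • J + (-(v * y)) • (I * J) := by
    simp only [hH, add_mul, smul_mul_assoc, one_mul, h.hI, h.hJI, h.IJ_I]
    module
  have key : ∀ a b c d : F, ξ * H = a • (1 : M₂) + b • I + c • J + d • (I * J) →
      -(v * x) = a ∧ u = b ∧ v * z = c ∧ -(v * y) = d := by
    intro a b c d hd
    have h0 : (-(v * x) - a) • (1 : M₂) + (u - b) • I + (v * z - c) • J + (-(v * y) - d) • (I * J)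
        = 0 := by
      calc _ = H * I - ξ * H := by rw [ei, hd]; module
        _ = 0 := by rw [e, sub_self]
    obtain ⟨p, q, r, s⟩ := h.indep h2 h0
    exact ⟨sub_eq_zero.1 p, sub_eq_zero.1 q, sub_eq_zero.1 r, sub_eq_zero.1 s⟩
  have eI : I * H = (-(v * x)) • (1 : M₂) + u • I + (-(v * z)) • J + (v * y) • (I * J) := by
    simp only [hH, mul_add, mul_smul_comm, mul_one, h.hI, h.I_IJ]
    module
  have eJ : J * H = (-(v * y)) • (1 : M₂) + (v * z) • I + u • J + (-(v * x)) • (I * J) := by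
    simp only [hH, mul_add, mul_smul_comm, mul_one, h.hJI, h.hJ, h.J_IJ]
    module
  have eK : I * J * H = (-(v * z)) • (1 : M₂) + (-(v * y)) • I + (v * x) • J + u • (I * J) := by
    simp only [hH, mul_add, mul_smul_comm, mul_one, h.IJ_I, h.IJ_J, h.IJ_IJ]
    module
  rcases hξ with rfl | rfl | rfl | rfl | rfl | rfl
  · obtain ⟨-, -, c, d⟩ := key _ _ _ _ eI
    refine .inl ⟨?_, ?_⟩
    · exact (mul_eq_zero.1 (show 2 * v * y = 0 by linear_combination -d)).resolve_left (mul_ne_zero h2 hv)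
    · exact (mul_eq_zero.1 (show 2 * v * z = 0 by linear_combination c)).resolve_left (mul_ne_zero h2 hv)
  · obtain ⟨-, b, -, -⟩ := key _ (-u) _ _ (by rw [neg_mul, eI, neg_add, neg_add, neg_add, ← neg_smul, ← neg_smul, ← neg_smul, ← neg_smul])
    exact absurd ((mul_eq_zero.1 (show 2 * u = 0 by linear_combination b)).resolve_left h2) hu
  · obtain ⟨a, b, -, -⟩ := key _ _ _ _ eJ
    refine .inr (.inl ⟨?_, by linear_combination -(u + v * z) * b⟩)
    have : x = y := mul_left_cancel₀ hv (by linear_combination -a)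
    rw [this]
  · obtain ⟨a, b, -, -⟩ := key _ _ _ _ (by rw [neg_mul, eJ, neg_add, neg_add, neg_add, ← neg_smul, ← neg_smul, ← neg_smul, ← neg_smul])
    refine .inr (.inl ⟨?_, by linear_combination (v * z - u) * b⟩)
    have : x = -y := mul_left_cancel₀ hv (by linear_combination -a)
    rw [this]; ring
  · obtain ⟨a, b, -, -⟩ := key _ _ _ _ eK
    refine .inr (.inr ⟨?_, by linear_combination (v * y - u) * b⟩)
    have : x = z := mul_left_cancel₀ hv (by linear_combination -a)
    rw [this]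
  · obtain ⟨a, b, -, -⟩ := key _ _ _ _ (by rw [neg_mul, eK, neg_add, neg_add, neg_add, ← neg_smul, ← neg_smul, ← neg_smul, ← neg_smul])
    refine .inr (.inr ⟨?_, by linear_combination -(u + v * y) * b⟩)
    have : x = -z := mul_left_cancel₀ hv (by linear_combination -a)
    rw [this]; ring

/-- If `u + v t` permutes the axes, then `t` is an axis and `u² = v²`, or `t` is a diagonal. -/
theorem axis_main (h2 : (2 : F) ≠ 0) {u v x y z : F} (hu : u ≠ 0) (hv : v ≠ 0) {H : M₂}
    (hH : H = u • (1 : M₂) + v • (x • I + y • J + z • (I * J))) (hxyz : x * x + y * y + z * z = 1)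
    (hn : ∀ η : M₂, (η = I ∨ η = J ∨ η = I * J) →
      ∃ ξ : M₂, (ξ = I ∨ ξ = -I ∨ ξ = J ∨ ξ = -J ∨ ξ = I * J ∨ ξ = -(I * J)) ∧ H * η = ξ * H) :
    u * u = v * v ∨ (x * x = y * y ∧ y * y = z * z) := by
  have cI := h.axis_I h2 hu hv hH (hn I (.inl rfl))
  have cJ := h.rotate.axis_I h2 hu hv (x := y) (y := -x) (z := z) (H := H)
    (by
      rw [hH, show J * -I = I * J by rw [mul_neg, h.hJI, neg_neg]]
      module)
    (by
      obtain ⟨ξ, hξ, e⟩ := hn J (.inr (.inl rfl))
      refine ⟨ξ, ?_, e⟩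
      rw [show J * -I = I * J by rw [mul_neg, h.hJI, neg_neg], neg_neg]
      tauto)
  have cK := h.rotate'.axis_I h2 hu hv (x := z) (y := x) (z := y) (H := H)
    (by
      rw [hH, h.IJ_I]
      module)
    (by
      obtain ⟨ξ, hξ, e⟩ := hn (I * J) (.inr (.inr rfl))
      refine ⟨ξ, ?_, e⟩
      rw [h.IJ_I]
      tauto)
  rcases cI with ⟨hy, hz⟩ | ⟨e1, e2⟩ | ⟨e1, e2⟩
  · subst hy hz
    left
    rcases cJ with ⟨ha, -⟩ | ⟨ha, -⟩ | ⟨-, hb⟩
    · rw [neg_eq_zero] at ha; subst ha; simp at hxyz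
    · rw [mul_zero, neg_mul_neg] at ha; rw [← ha] at hxyz; simp at hxyz
    · linear_combination -hb + v * v * hxyz
  · rcases cK with ⟨hx, hy⟩ | ⟨f1, f2⟩ | ⟨f1, f2⟩
    · subst hx hy
      left
      linear_combination -e2 + v * v * hxyz
    · exact .inr ⟨e1, by linear_combination -e1 - f1⟩
    · exact .inr ⟨e1, by linear_combination -f1⟩
  · rcases cJ with ⟨hx, hz⟩ | ⟨f1, f2⟩ | ⟨f1, f2⟩
    · rw [neg_eq_zero] at hx
      subst hx hz
      left
      linear_combination -e2 + v * v * hxyz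
    · exact .inr ⟨by linear_combination -f1, by linear_combination f1 + e1⟩
    · exact .inr ⟨by linear_combination e1 - f1, f1⟩

end QPair

end Cfsg.Agent.PronormalPSp
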